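import Cfsg.Agent.S0183
import Cfsg.Agent.S0252
import Cfsg.Agent.S1230
import Cfsg.Agent.H390.PslSpec

/-!
# Groups all of whose nonidentity elements have prime order

**A nonsolvable finite group all of whose nonidentity elements have prime order is isomorphic to `A₅`.**
-/

set_option autoImplicit false
set_option linter.style.haveILetI false
set_option linter.dupNamespace false

namespace Cfsg.Agent.H510.AllPrime

universe u

/-- every nonidentity element has prime order -/
def AllPrime (G : Type u) [Group G] : Prop := ∀ x : G, x ≠ 1 → (orderOf x).Prime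

theorem AllPrime.subgroup {G : Type u} [Group G] (h : AllPrime G) (H : Subgroup G) : AllPrime H := by
  intro x hx
  rw [← Subgroup.orderOf_coe]
  exact h x (fun h => hx (Subtype.ext h))

theorem AllPrime.of_surjective {G : Type u} {H : Type*} [Group G] [Group H] (h : AllPrime G)
    (f : G →* H) (hf : Function.Surjective f) : ∀ x : H, x ≠ 1 → (orderOf x).Prime := by
  intro y hy
  obtain ⟨x, rfl⟩ := hf y
  have hx : x ≠ 1 := by rintro rfl; exact hy (map_one f)
  have hp := h x hx
  have hd : orderOf (f x) ∣ orderOf x := orderOf_map_dvd f x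
  rcases (Nat.dvd_prime hp).1 hd with h1 | h1
  · exact absurd (orderOf_eq_one_iff.1 h1) hy
  · rw [h1]; exact hp

theorem pow_orderOf_of_commute {G : Type u} [Group G] (h : AllPrime G) {g y : G}
    (hg : g ≠ 1) (hy : Commute g y) : y ^ orderOf g = 1 := by
  by_cases hy1 : y = 1
  · rw [hy1, one_pow]
  have hpg := h g hg
  have hpy := h y hy1
  by_contra hne
  have hcop : Nat.Coprime (orderOf g) (orderOf y) := by
    rw [Nat.coprime_primes hpg hpy]
    intro he
    apply hne
    rw [he]
    exact pow_orderOf_eq_one y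
  have hmul := hy.orderOf_mul_eq_mul_orderOf_of_coprime hcop
  have hgy : g * y ≠ 1 := by
    intro he
    rw [he, orderOf_one] at hmul
    have := Nat.eq_one_of_mul_eq_one_right hmul.symm
    exact hpg.ne_one this
  have hp := h _ hgy
  rw [hmul] at hp
  exact Nat.not_prime_mul hpg.ne_one hpy.ne_one hp

theorem isCN {G : Type u} [Group G] [Finite G] (h : AllPrime G) : Cfsg.IsCNGroup G := by
  intro g hg
  have hp := h g hg
  haveI : Fact (orderOf g).Prime := ⟨hp⟩
  have : IsPGroup (orderOf g) (Subgroup.centralizer ({g} : Set G)) := by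
    intro y
    refine ⟨1, ?_⟩
    apply Subtype.ext
    rw [pow_one]
    push_cast
    refine pow_orderOf_of_commute h hg ?_
    exact (Subgroup.mem_centralizer_singleton_iff.1 y.2).symm
  exact this.isNilpotent

theorem solvable_of_odd {G : Type u} [Group G] [Finite G] (h : AllPrime G)
    (hodd : Odd (Nat.card G)) : Group.IsSolvable G :=
  Cfsg.Agent.S0183.result hodd (isCN h)

/-- **A nonsolvable finite group all of whose nonidentity elements have prime order is `A₅`.** -/
theorem main {G : Type u} [Group G] [Finite G] (hns : ¬ Group.IsSolvable G) (h : AllPrime G) :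
    Nonempty (G ≃* alternatingGroup (Fin 5)) := by
  classical
  haveI : Fact (Nat.Prime 2) := ⟨Nat.prime_two⟩
  obtain ⟨T⟩ : Nonempty (Sylow 2 G) := inferInstance
  haveI hTsol : Group.IsSolvable (T : Subgroup G) := by
    haveI := T.isPGroup'.isNilpotent
    infer_instance
  have heven : 2 ∣ Nat.card G := by
    by_contra hc
    exact hns (solvable_of_odd h (Nat.odd_iff.2 (by omega)))
  have hT2 : ∀ x ∈ (T : Subgroup G), x * x = 1 := by
    intro x hx
    by_cases hx1 : x = 1
    · rw [hx1, one_mul]
    obtain ⟨k, hk⟩ := T.isPGroup' ⟨x, hx⟩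
    have hk' : x ^ 2 ^ k = 1 := by simpa using congrArg Subtype.val hk
    have hd := orderOf_dvd_of_pow_eq_one hk'
    have hp := h x hx1
    have h2 : orderOf x = 2 := (Nat.prime_dvd_prime_iff_eq hp Nat.prime_two).1 (hp.dvd_of_dvd_pow hd)
    rw [← pow_two, ← h2, pow_orderOf_eq_one]
  have hnn : ¬ (T : Subgroup G).Normal := by
    intro hn
    haveI := hn
    have hodd : Odd (Nat.card (G ⧸ (T : Subgroup G))) := by
      rw [← Subgroup.index_eq_card]
      have := T.not_dvd_index
      exact Nat.odd_iff.2 (by omega)
    have hsol := solvable_of_odd (h.of_surjective (QuotientGroup.mk' (T : Subgroup G))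
      (QuotientGroup.mk'_surjective _)) hodd
    exact hns ((Group.isSolvable_iff_subgroup_quotient (T : Subgroup G)).2 ⟨hTsol, hsol⟩)
  have hnc : ¬ IsCyclic (T : Subgroup G) := by
    intro hcyc
    have hmin : (Nat.card G).minFac = 2 := (Nat.minFac_eq_two_iff _).2 heven
    have hcomp := IsCyclic.isComplement' hmin hcyc
    set K := (MonoidHom.transferSylow T (hcyc.normalizer_le_centralizer hmin)).ker with hK
    have hKodd : Odd (Nat.card K) := by
      have h1 := MonoidHom.not_dvd_card_ker_transferSylow T (hcyc.normalizer_le_centralizer hmin)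
      rw [← hK] at h1
      exact Nat.odd_iff.2 (by omega)
    have hKsol := solvable_of_odd (h.subgroup K) hKodd
    have hGK : Group.IsSolvable (G ⧸ K) := by
      have e : (T : Subgroup G) ≃* G ⧸ K := by
        exact hcomp.symm.QuotientMulEquiv.symm
      exact Group.isSolvable_of_surjective (f := e.toMonoidHom) e.surjective
    exact hns ((Group.isSolvable_iff_subgroup_quotient K).2 ⟨hKsol, hGK⟩)
  have hC : ∀ t : G, orderOf t = 2 → IsMulCommutative (Subgroup.centralizer ({t} : Set G)) ∧
      ∀ c ∈ Subgroup.centralizer ({t} : Set G), c ^ 2 = 1 := by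
    intro t ht
    have ht1 : t ≠ 1 := by
      rintro rfl
      rw [orderOf_one] at ht
      omega
    have hsq : ∀ c ∈ Subgroup.centralizer ({t} : Set G), c ^ 2 = 1 := by
      intro c hc
      rw [← ht]
      exact pow_orderOf_of_commute h ht1 (Subgroup.mem_centralizer_singleton_iff.1 hc).symm
    refine ⟨⟨⟨fun a b => ?_⟩⟩, hsq⟩
    have ha : a * a = 1 := Subtype.ext (by have := hsq a a.2; rw [pow_two] at this; exact this)
    have hb : b * b = 1 := Subtype.ext (by have := hsq b b.2; rw [pow_two] at this; exact this)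
    have hab : (a * b) * (a * b) = 1 :=
      Subtype.ext (by have := hsq (a * b : _) (a * b).2; rw [pow_two] at this; exact this)
    calc a * b = a * ((a * b) * (a * b)) * b := by rw [hab, mul_one]
      _ = (a * a) * (b * a) * (b * b) := by group
      _ = b * a := by rw [ha, hb, one_mul, mul_one]
  obtain ⟨F, _, _, hF, ⟨e⟩⟩ := Cfsg.Agent.S1230.result T hnc hnn hC
  -- the order of F
  obtain ⟨n, hn⟩ := T.isPGroup'.exists_card_eq
  have hn2 : 2 ≤ n := by
    by_contra hlt
    have : n = 0 ∨ n = 1 := by omega
    apply hnc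
    rcases this with rfl | rfl
    · rw [pow_zero] at hn
      haveI := (Nat.card_eq_one_iff_unique.1 hn).1
      exact isCyclic_of_subsingleton
    · rw [pow_one] at hn
      exact isCyclic_of_prime_card hn
  have hFn : Fintype.card F = 2 ^ n := by rw [hF, hn]
  have h4 : 4 ≤ Fintype.card F := by
    rw [hFn]
    calc 4 = 2 ^ 2 := by norm_num
      _ ≤ 2 ^ n := Nat.pow_le_pow_right (by norm_num) hn2
  have heF : Even (Fintype.card F) := by
    rw [hFn]
    exact (Nat.even_pow.2 ⟨even_two, by omega⟩)
  haveI hchar : CharP F 2 := by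
    obtain ⟨p, hp⟩ := CharP.exists F
    haveI := hp
    obtain ⟨m, hpp, hm⟩ := FiniteField.card F p
    have hp2 : p = 2 := by
      have : p ∣ 2 ^ n := by
        rw [← hFn, hm]
        exact dvd_pow_self p m.2.ne'
      exact (Nat.prime_dvd_prime_iff_eq hpp Nat.prime_two).1 (hpp.dvd_of_dvd_pow this)
    rw [← hp2]; exact hp
  have hdd := H390.PslSpec.dd_even heF (by omega)
  have key : ∀ m : ℕ, m ≠ 1 → (∃ g : Matrix.ProjectiveSpecialLinearGroup (Fin 2) F, orderOf g = m) → m.Prime := by
    rintro m hm ⟨g, rfl⟩
    have : orderOf (e.symm g) = orderOf g := orderOf_injective e.symm.toMonoidHom e.symm.injective g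
    rw [← this]
    apply h
    intro h1
    apply hm
    rw [← this, h1, orderOf_one]
  have hq1 : (Fintype.card F - 1).Prime := by
    refine key _ (by omega) ?_
    obtain ⟨g, hg⟩ := H390.PslSpec.exists_sub (F := F) (p := 2) h4
    rw [hdd, Nat.div_one] at hg
    exact ⟨g, hg⟩
  have hq2 : (Fintype.card F + 1).Prime := by
    refine key _ (by omega) ?_
    obtain ⟨g, hg⟩ := H390.PslSpec.exists_add (F := F) (p := 2) h4
    rw [hdd, Nat.div_one] at hg
    exact ⟨g, hg⟩
  have h3 : Fintype.card F = 4 := by
    have h3q : ¬ 3 ∣ Fintype.card F := by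
      rw [hFn]
      intro h
      have := Nat.prime_three.dvd_of_dvd_pow h
      omega
    have : 3 ∣ Fintype.card F - 1 ∨ 3 ∣ Fintype.card F + 1 := by omega
    rcases this with h | h
    · have := (Nat.prime_dvd_prime_iff_eq Nat.prime_three hq1).1 h
      omega
    · have := (Nat.prime_dvd_prime_iff_eq Nat.prime_three hq2).1 h
      omega
  obtain ⟨e2⟩ := Cfsg.Agent.S0252.result h3
  exact ⟨e.trans e2⟩

end Cfsg.Agent.H510.AllPrime
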