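import Mathlib

/-!
# Counting orbits

Bounds for the number of orbits of a finite group acting on a finite set, and for the number of
conjugacy classes.
-/

set_option autoImplicit false
set_option linter.style.haveILetI false

namespace Cfsg.Agent.H510.OrbCount

open MulAction

/-- the orbit counting lemma, summed over points -/
theorem sum_card_stabilizer (A X : Type*) [Group A] [MulAction A X] [Finite A] [Fintype X] :
    ∑ x : X, Nat.card (stabilizer A x) = Nat.card (orbitRel.Quotient A X) * Nat.card A := by
  classical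
  haveI : Fintype A := Fintype.ofFinite A
  have e1 : (Σ x : X, stabilizer A x) ≃ {q : A × X // q.1 • q.2 = q.2} :=
    { toFun := fun s => ⟨(s.2.1, s.1), s.2.2⟩
      invFun := fun q => ⟨q.1.2, ⟨q.1.1, q.2⟩⟩
      left_inv := fun s => rfl
      right_inv := fun q => rfl }
  have e2 : (Σ a : A, fixedBy X a) ≃ {q : A × X // q.1 • q.2 = q.2} :=
    { toFun := fun s => ⟨(s.1, s.2.1), s.2.2⟩
      invFun := fun q => ⟨q.1.1, ⟨q.1.2, q.2⟩⟩
      left_inv := fun s => rfl
      right_inv := fun q => rfl }
  have h1 : ∑ x : X, Nat.card (stabilizer A x) = Nat.card (Σ x : X, stabilizer A x) := by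
    rw [Nat.card_sigma]
  rw [h1, Nat.card_congr (e1.trans e2.symm), Nat.card_congr (sigmaFixedByEquivOrbitsProdGroup A X),
    Nat.card_prod]

/-- If all orbits outside `Z` have length at least `p` and those in `S` have length at least `p²`, where
`p * |Z| ≤ |S|`, then there are at most `|X| / p` orbits. -/
theorem orbits_bound {A X : Type*} [Group A] [MulAction A X] [Finite A] [Finite X] (p : ℕ) (hp : 1 ≤ p)
    (Z S : Set X) (hZS : Disjoint Z S)
    (h1 : ∀ x ∉ Z, p ≤ (orbit A x).ncard) (h2 : ∀ x ∈ S, p * p ≤ (orbit A x).ncard)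
    (hcard : p * Z.ncard ≤ S.ncard) :
    p * Nat.card (orbitRel.Quotient A X) ≤ Nat.card X := by
  classical
  haveI : Fintype X := Fintype.ofFinite X
  have hA : 0 < Nat.card A := Nat.card_pos
  have hst : ∀ x : X, Nat.card (stabilizer A x) * (orbit A x).ncard = Nat.card A := by
    intro x
    rw [← index_stabilizer, Subgroup.card_mul_index]
  have hx : ∀ x : X, (p * p) * Nat.card (stabilizer A x) ≤
      ((if x ∈ Z then p * p else 0) + (if x ∈ S then 1 else 0) + (if x ∉ Z ∧ x ∉ S then p else 0)) *
        Nat.card A := by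
    intro x
    have h := hst x
    have hpos : 0 < (orbit A x).ncard := by
      by_contra h0
      have : (orbit A x).ncard = 0 := by omega
      rw [this, mul_zero] at h
      omega
    by_cases hz : x ∈ Z
    · have hs : x ∉ S := fun hs => (Set.disjoint_left.1 hZS) hz hs
      simp only [hz, hs, if_true, if_false, not_true, not_false_eq_true, false_and, add_zero]
      apply Nat.mul_le_mul_left
      rw [← h]
      exact Nat.le_mul_of_pos_right _ hpos
    · by_cases hs : x ∈ S
      · simp only [hz, hs, if_true, if_false, not_true, not_false_eq_true, and_false, add_zero, zero_add]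
        rw [one_mul, ← h, mul_comm]
        exact Nat.mul_le_mul_left _ (h2 x hs)
      · simp only [hz, hs, if_true, if_false, not_false_eq_true, and_self, zero_add]
        rw [← h, mul_assoc]
        apply Nat.mul_le_mul_left
        rw [mul_comm]
        exact Nat.mul_le_mul_left _ (h1 x hz)
  have hsum := Finset.sum_le_sum (fun x (_ : x ∈ (Finset.univ : Finset X)) => hx x)
  rw [← Finset.mul_sum, sum_card_stabilizer, ← Finset.sum_mul, ← mul_assoc] at hsum
  have hle := Nat.le_of_mul_le_mul_right hsum hA
  rw [Finset.sum_add_distrib, Finset.sum_add_distrib] at hle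
  have hZc : ∑ x : X, (if x ∈ Z then p * p else 0) = Z.ncard * (p * p) := by
    rw [← Finset.sum_filter, Finset.sum_const, smul_eq_mul]
    congr 1
    rw [Set.ncard_eq_toFinset_card' Z]
    congr 1
    ext; simp
  have hSc : ∑ x : X, (if x ∈ S then 1 else 0) = S.ncard := by
    rw [← Finset.sum_filter, Finset.sum_const, smul_eq_mul, mul_one]
    rw [Set.ncard_eq_toFinset_card' S]
    congr 1
    ext; simp
  have hRc : ∑ x : X, (if x ∉ Z ∧ x ∉ S then p else 0) = (Set.ncard ((Z ∪ S)ᶜ)) * p := by
    rw [← Finset.sum_filter, Finset.sum_const, smul_eq_mul]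
    congr 1
    rw [Set.ncard_eq_toFinset_card' _]
    congr 1
    ext; simp
  rw [hZc, hSc, hRc] at hle
  have htot : Z.ncard + S.ncard + ((Z ∪ S)ᶜ).ncard = Nat.card X := by
    rw [← Set.ncard_union_eq hZS, Set.ncard_add_ncard_compl]
  set z := Z.ncard
  set s := S.ncard
  set t := ((Z ∪ S)ᶜ).ncard
  set k := Nat.card (orbitRel.Quotient A X)
  rw [← htot]
  -- p * p * k ≤ z * (p * p) + s + t * p; goal: p * k ≤ z + s + t ; p * z ≤ s
  obtain ⟨p', rfl⟩ : ∃ p', p = p' + 1 := ⟨p - 1, by omega⟩
  have hz' : (p' + 1) * z * p' ≤ s * p' := Nat.mul_le_mul_right _ hcard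
  apply Nat.le_of_mul_le_mul_left _ (show 0 < p' + 1 by omega)
  nlinarith

end Cfsg.Agent.H510.OrbCount
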