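import Mathlib
import Cfsg.Agent.S0039
import Cfsg.Agent.S0205
import Cfsg.Agent.S3359
import Cfsg.Agent.OddOrderLocal.CommProd
import Cfsg.Agent.PermutationGroups.AutSL25

/-!
# Isolated primes dividing the order of the solvable radical (helper510, for S3631)

`A` : a set of primes, `2 ∉ A`, no element of `G` of order `r s`, `r ∈ A`, `s ∉ A`; `K ⊲ G`, `G / K` without solvable
normal subgroups.  If `r ∈ A` divides `|K|` then the nonabelian simple normal subgroups of `G / K` have order dividing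
120 (`card_dvd_of_isolated`): the centralizer of an involution of `N(R)`, `R` a Sylow `r`-subgroup of `K`, is a
Frobenius complement which covers `G / K`.
-/

set_option autoImplicit false

namespace Cfsg.Agent.H510.RadIso

open Subgroup
open scoped Pointwise

/-- Simple normal subgroups of quotients of groups with a normal subgroup `SL(2, 5) × M` of index at most 2. -/
theorem card_dvd_120 {C X : Type*} [Group C] [Finite C] [Group X] [Finite X] (φ : C →* X)
    (hφ : Function.Surjective φ) (G₀ S₁ M : Subgroup C) (hn : G₀.Normal) (hi : G₀.index = 1 ∨ G₀.index = 2)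
    (hSM : S₁ ⊔ M = G₀) (hinf : S₁ ⊓ M = ⊥) (hcomm : ∀ s ∈ S₁, ∀ x ∈ M, s * x = x * s)
    (hc : Nat.card ↥S₁ = 120) (hM : Group.IsSolvable ↥M)
    (S : Subgroup X) [S.Normal] (hs : IsSimpleGroup ↥S) (hna : ¬ IsMulCommutative ↥S) : Nat.card ↥S ∣ 120 := by
  -- `S ≤ φ(G₀)`
  have hle : S ≤ G₀.map φ := by
    have hn' : (G₀.map φ).Normal := Subgroup.Normal.map hn φ hφ
    have hn'' : ((G₀.map φ).subgroupOf S).Normal := inferInstance
    rcases hn''.eq_bot_or_eq_top with h | h
    · exfalso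
      apply hna
      have h1 : Disjoint (G₀.map φ) S := Subgroup.subgroupOf_eq_bot.1 h
      have h2 : (G₀.map φ).index ∣ 2 := by
        have h3 := Subgroup.index_map_dvd G₀ hφ
        rcases hi with h4 | h4
        · exact (h3.trans h4.dvd).trans (one_dvd 2)
        · exact h3.trans h4.dvd
      refine ⟨⟨fun a b => ?_⟩⟩
      -- every element of `X` has its square in `φ(G₀)`
      have hsq : ∀ x : X, x ^ 2 ∈ G₀.map φ := by
        intro x
        rcases (Nat.dvd_prime Nat.prime_two).1 h2 with h3 | h3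
        · rw [Subgroup.index_eq_one.1 h3]
          exact Subgroup.mem_top _
        · exact Subgroup.sq_mem_of_index_two h3 x
      have h5 : ∀ x : ↥S, x * x = 1 := by
        intro x
        apply Subtype.ext
        have h6 : (x : X) ^ 2 ∈ G₀.map φ := hsq x
        have h7 : (x : X) ^ 2 ∈ S := S.pow_mem x.2 2
        have h8 := (disjoint_iff_inf_le.1 h1) ⟨h6, h7⟩
        rw [Subgroup.mem_bot] at h8
        rw [Subgroup.coe_mul, ← pow_two, h8]
        rfl
      have h6 : ∀ x : ↥S, x⁻¹ = x := fun x => inv_eq_of_mul_eq_one_left (h5 x)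
      calc a * b = (a * b)⁻¹ := (h6 _).symm
        _ = b⁻¹ * a⁻¹ := mul_inv_rev a b
        _ = b * a := by rw [h6, h6]
    · exact Subgroup.subgroupOf_eq_top.1 h
  -- `G₀` normalises `M`
  have hnorm : ∀ g ∈ G₀, ∀ m ∈ M, g * m * g⁻¹ ∈ M := by
    intro g hg m hm
    rw [← hSM, Cfsg.Agent.OddOrderLocal.CommProd.mem_sup_of_comm hcomm] at hg
    obtain ⟨s, hs, t, ht, rfl⟩ := hg
    have h1 : s * t * m * (s * t)⁻¹ = s * (t * m * t⁻¹) * s⁻¹ := by group
    have h2 : t * m * t⁻¹ ∈ M := M.mul_mem (M.mul_mem ht hm) (M.inv_mem ht)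
    rw [h1, hcomm s hs _ h2, mul_inv_cancel_right]
    exact h2
  set T : Subgroup C := S.comap φ ⊓ G₀ with hT
  have hTS : T.map φ = S := by
    apply le_antisymm
    · rintro _ ⟨t, ht, rfl⟩
      exact ht.1
    · intro x hx
      obtain ⟨g, hg, rfl⟩ := hle hx
      exact ⟨g, ⟨hx, hg⟩, rfl⟩
  -- `M ∩ T ≤ ker φ`
  have hMT : M ⊓ T ≤ φ.ker := by
    have hle' : (M ⊓ T).map φ ≤ S := by
      rw [← hTS]
      exact Subgroup.map_mono inf_le_right
    have hnn : (((M ⊓ T).map φ).subgroupOf S).Normal := by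
      constructor
      rintro ⟨n, hnS⟩ hn' ⟨g, hg⟩
      rw [Subgroup.mem_subgroupOf] at hn' ⊢
      obtain ⟨m, hm, hmn⟩ := hn'
      rw [← hTS] at hg
      obtain ⟨t, ht, rfl⟩ := hg
      refine ⟨t * m * t⁻¹, ⟨hnorm t ht.2 m hm.1, T.mul_mem (T.mul_mem ht hm.2) (T.inv_mem ht)⟩, ?_⟩
      rw [map_mul, map_mul, map_inv, hmn]
      rfl
    rcases hnn.eq_bot_or_eq_top with h | h
    · intro m hm
      have h1 : Disjoint ((M ⊓ T).map φ) S := Subgroup.subgroupOf_eq_bot.1 h
      have h2 : φ m ∈ (M ⊓ T).map φ := ⟨m, hm, rfl⟩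
      have h3 := (disjoint_iff_inf_le.1 h1) ⟨h2, hle' h2⟩
      exact Subgroup.mem_bot.1 h3
    · exfalso
      apply hna
      have h1 : S ≤ (M ⊓ T).map φ := Subgroup.subgroupOf_eq_top.1 h
      have h2 : S ≤ M.map φ := h1.trans (Subgroup.map_mono inf_le_left)
      have h3 : Group.IsSolvable ↥(M.map φ) :=
        Group.isSolvable_of_surjective (f := φ.subgroupMap M) (φ.subgroupMap_surjective M)
      have h4 : Group.IsSolvable ↥S :=
        Group.isSolvable_of_isSolvable_injective (f := Subgroup.inclusion h2) (Subgroup.inclusion_injective h2)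
      exact ⟨⟨IsSimpleGroup.comm_iff_isSolvable.2 h4⟩⟩
  -- the counting
  have e1 : Nat.card ↥S = φ.ker.relIndex T := by
    rw [Subgroup.relIndex_ker, hTS]
  have e2 : φ.ker.relIndex T ∣ M.relIndex T := by
    have h1 := Subgroup.relIndex_dvd_of_le_left T hMT
    rwa [Subgroup.inf_relIndex_right] at h1
  have e3 : M.relIndex T ∣ M.relIndex G₀ := by
    have hTG : T ≤ G₀ := inf_le_right
    have hMn : (M.subgroupOf G₀).Normal := by
      constructor
      rintro ⟨m, hm⟩ hm' ⟨g, hg⟩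
      rw [Subgroup.mem_subgroupOf] at hm' ⊢
      exact hnorm g hg m hm'
    have h1 := Subgroup.relIndex_dvd_index_of_normal (M.subgroupOf G₀) (T.subgroupOf G₀)
    rwa [Subgroup.relIndex_subgroupOf hTG] at h1
  have e4 : M.relIndex G₀ = 120 := by
    have hMG : M ≤ G₀ := by
      rw [← hSM]
      exact le_sup_right
    have h1 := Cfsg.Agent.OddOrderLocal.CommProd.card_sup_of_comm hcomm hinf
    rw [hSM, hc] at h1
    have h2 := Subgroup.card_mul_index (M.subgroupOf G₀)
    rw [Nat.card_congr (subgroupOfEquivOfLe hMG).toEquiv] at h2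
    have h3 : M.relIndex G₀ = (M.subgroupOf G₀).index := rfl
    rw [← h3, h1, mul_comm] at h2
    exact Nat.eq_of_mul_eq_mul_right Nat.card_pos h2
  rw [e1, ← e4]
  exact e2.trans e3

/-- commuting elements: an element of order `r s` -/
theorem exists_order_of_commute {G : Type*} [Group G] [Finite G] {x y : G} (hc : Commute x y) {r s : ℕ}
    (hr : r.Prime) (hs : s.Prime) (hrs : r ≠ s) (hx : orderOf x = r) (hy : orderOf y = s) :
    ∃ z : G, orderOf z = r * s := by
  refine ⟨x * y, ?_⟩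
  rw [hc.orderOf_mul_eq_mul_orderOf_of_coprime, hx, hy]
  rw [hx, hy]
  exact (Nat.coprime_primes hr hs).2 hrs

/-- The structure theorem applied to quotients of Frobenius complements. -/
theorem card_dvd_of_complement {F : Type*} [Group F] [Finite F] {C : Subgroup F}
    (hC : Cfsg.IsFrobeniusComplement C) {X : Type*} [Group X] [Finite X] (φ : ↥C →* X)
    (hφ : Function.Surjective φ) (S : Subgroup X) [S.Normal] (hs : IsSimpleGroup ↥S)
    (hna : ¬ IsMulCommutative ↥S) : Nat.card ↥S ∣ 120 := by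
  let f : F ≃* Shrink.{0} F := Shrink.mulEquiv.symm
  have hfin : Finite (Shrink.{0} F) := Finite.of_equiv F f.toEquiv
  have hns : ¬ Group.IsSolvable ↥C := by
    intro h
    apply hna
    have h1 : Group.IsSolvable X := Group.isSolvable_of_surjective (f := φ) hφ
    have h2 : Group.IsSolvable ↥S := inferInstance
    exact ⟨⟨IsSimpleGroup.comm_iff_isSolvable.2 h2⟩⟩
  have hfc : Cfsg.IsFrobeniusComplement (C.map f.toMonoidHom) := by
    obtain ⟨h1, h2, h3⟩ := hC
    refine ⟨?_, ?_, ?_⟩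
    · rwa [Ne, Subgroup.map_eq_bot_iff_of_injective _ f.injective]
    · intro h
      apply h2
      rw [eq_top_iff]
      intro x _
      have : f x ∈ C.map f.toMonoidHom := h ▸ Subgroup.mem_top _
      obtain ⟨y, hy, hxy⟩ := this
      rwa [← f.injective hxy]
    · intro g hg
      obtain ⟨g', rfl⟩ := f.surjective g
      have hg' : g' ∉ C := fun h => hg ⟨g', h, rfl⟩
      rw [eq_bot_iff]
      rintro _ ⟨⟨x, hx, rfl⟩, ⟨_, ⟨y, hy, rfl⟩, hxy⟩⟩
      have hxy' : g' * y * g'⁻¹ = x := by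
        apply f.injective
        rw [map_mul, map_mul, map_inv]
        exact hxy
      have : x ∈ C ⊓ (MulAut.conj g' • C) := ⟨hx, ⟨y, hy, hxy'⟩⟩
      rw [h3 g' hg', Subgroup.mem_bot] at this
      rw [Subgroup.mem_bot, this]
      exact map_one f
  obtain ⟨G₀, hG₀, hidx, S₁, M, hSM, hinf, hcomm, ⟨e⟩, -, hcop⟩ :=
    Cfsg.Agent.S3359.result (G := ↥C) hns
      ⟨Shrink.{0} F, inferInstance, hfin, C.map f.toMonoidHom, hfc,
        ⟨C.equivMapOfInjective f.toMonoidHom f.injective⟩⟩
  have hS : Nat.card ↥S₁ = 120 := by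
    rw [Nat.card_congr e.toEquiv]
    exact Cfsg.Agent.PermutationGroups.AutSL25.natCard
  have hM : Group.IsSolvable ↥M := by
    apply Cfsg.Agent.S0205.result
    rw [← Nat.coprime_two_right]
    exact hcop.coprime_dvd_right (by norm_num)
  exact card_dvd_120 φ hφ G₀ S₁ M hG₀ hidx hSM hinf hcomm hS hM S hs hna

/-- **Isolated primes dividing the order of the radical.** -/
theorem card_dvd_of_isolated {G : Type*} [Group G] [Finite G] (K : Subgroup G) [K.Normal]
    (hsol : ∀ M : Subgroup (G ⧸ K), M.Normal → Group.IsSolvable ↥M → M = ⊥) {A : Set ℕ} (h2 : 2 ∉ A)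
    (hA : ∀ r ∈ A, ∀ s ∉ A, r.Prime → s.Prime → ¬ ∃ x : G, orderOf x = r * s)
    {r : ℕ} (hr : r.Prime) (hrA : r ∈ A) (hrK : r ∣ Nat.card ↥K) (S : Subgroup (G ⧸ K)) [S.Normal]
    (hs : IsSimpleGroup ↥S) (hna : ¬ IsMulCommutative ↥S) : Nat.card ↥S ∣ 120 := by
  classical
  have hrf : Fact r.Prime := ⟨hr⟩
  have h2f : Fact (Nat.Prime 2) := ⟨Nat.prime_two⟩
  have hrr2 : r ≠ 2 := by
    rintro rfl
    exact h2 hrA
  obtain ⟨R₀⟩ : Nonempty (Sylow r ↥K) := inferInstance
  set R : Subgroup G := (R₀ : Subgroup ↥K).map K.subtype with hR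
  set N : Subgroup G := normalizer (R : Set G) with hN
  have hNK : N ⊔ K = ⊤ := Sylow.normalizer_sup_eq_top R₀
  have hRp : IsPGroup r ↥R := R₀.isPGroup'.map _
  -- an element of order `r` of `R`
  obtain ⟨y₀, hy₀R, hy₀⟩ : ∃ y ∈ R, orderOf y = r := by
    have h3 : r ∣ Nat.card ↥(R₀ : Subgroup ↥K) := by
      have h4 := R₀.dvd_card_of_dvd_card hrK
      exact h4
    obtain ⟨y, hy⟩ := exists_prime_orderOf_dvd_card' (G := ↥(R₀ : Subgroup ↥K)) r h3
    refine ⟨((y : ↥K) : G), ⟨(y : ↥K), y.2, rfl⟩, ?_⟩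
    rw [Subgroup.orderOf_coe, Subgroup.orderOf_coe, hy]
  -- every nontrivial element of `R` has a power of order `r`
  have hpow : ∀ y ∈ R, y ≠ 1 → ∃ k : ℕ, orderOf (y ^ k) = r := by
    intro y hy hy1
    obtain ⟨k, hk⟩ := (IsPGroup.iff_orderOf.1 hRp) ⟨y, hy⟩
    rw [Subgroup.orderOf_mk] at hk
    have hk0 : k ≠ 0 := by
      rintro rfl
      rw [pow_zero, orderOf_eq_one_iff] at hk
      exact hy1 hk
    have h3 : r ∣ orderOf y := by
      rw [hk]
      exact dvd_pow_self r hk0
    exact ⟨orderOf y / r, orderOf_pow_orderOf_div (orderOf_pos y).ne' h3⟩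
  -- elements of prime order `s ∉ A` have no fixed points in `R`
  have hfix : ∀ s : ℕ, s.Prime → s ∉ A → ∀ x : G, orderOf x = s → ∀ y ∈ R, Commute y x → y = 1 := by
    intro s hs hsA x hx y hy hc
    by_contra hy1
    obtain ⟨k, hk⟩ := hpow y hy hy1
    have hrs : r ≠ s := by
      rintro rfl
      exact hsA hrA
    exact hA r hrA s hsA hr hs (exists_order_of_commute (hc.pow_left k) hr hs hrs hk hx)
  -- the projection of `N`
  have hproj : ∀ g : G, ∃ n ∈ N, (QuotientGroup.mk' K) n = (QuotientGroup.mk' K) g := by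
    intro g
    have hg : g ∈ N ⊔ K := hNK ▸ Subgroup.mem_top g
    rw [← SetLike.mem_coe, Subgroup.mul_normal] at hg
    obtain ⟨n, hn, k, hk, rfl⟩ := Set.mem_mul.1 hg
    refine ⟨n, hn, ?_⟩
    have hk1 : (QuotientGroup.mk' K) k = 1 := (QuotientGroup.eq_one_iff k).2 hk
    rw [map_mul, hk1, mul_one]
  -- `|N|` is even
  have hnt : ¬ Group.IsSolvable (G ⧸ K) := by
    intro h3
    apply hna
    have h4 : Group.IsSolvable ↥S := inferInstance
    exact ⟨⟨IsSimpleGroup.comm_iff_isSolvable.2 h4⟩⟩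
  have hNs : ¬ Group.IsSolvable ↥N := by
    intro h3
    apply hnt
    refine Group.isSolvable_of_surjective (f := (QuotientGroup.mk' K).domRestrict N) ?_
    intro y
    obtain ⟨g, rfl⟩ := QuotientGroup.mk'_surjective K y
    obtain ⟨n, hn, h4⟩ := hproj g
    exact ⟨⟨n, hn⟩, h4⟩
  obtain ⟨z, hzN, hz⟩ : ∃ z ∈ N, orderOf z = 2 := by
    have h3 : 2 ∣ Nat.card ↥N := by
      by_contra h4
      exact hNs (Cfsg.Agent.S0205.result (Nat.not_even_iff_odd.1 fun h => h4 h.two_dvd))
    obtain ⟨z, hz⟩ := exists_prime_orderOf_dvd_card' (G := ↥N) 2 h3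
    exact ⟨z, z.2, by rw [Subgroup.orderOf_coe, hz]⟩
  -- involutions of `N` invert `R`
  have hinv : ∀ t ∈ N, orderOf t = 2 → ∀ y ∈ R, t * y * t⁻¹ = y⁻¹ := by
    intro t htN ht y hy
    have htt : t * t = 1 := by
      have h3 := pow_orderOf_eq_one t
      rwa [ht, pow_two] at h3
    have hmem : ∀ w : ↥R, t * (w : G) * t⁻¹ ∈ R := fun w => (Subgroup.mem_normalizer_iff.1 htN w).1 w.2
    let φ : ↥R →* ↥R :=
      { toFun := fun w => ⟨t * (w : G) * t⁻¹, hmem w⟩
        map_one' := by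
          apply Subtype.ext
          change t * 1 * t⁻¹ = 1
          rw [mul_one, mul_inv_cancel]
        map_mul' := fun a b => by
          apply Subtype.ext
          change t * ((a : G) * b) * t⁻¹ = t * a * t⁻¹ * (t * b * t⁻¹)
          group }
    have hφ : MonoidHom.FixedPointFree φ := by
      intro w hw
      have h3 : t * (w : G) * t⁻¹ = w := congrArg Subtype.val hw
      apply Subtype.ext
      refine hfix 2 Nat.prime_two h2 t ht w w.2 ?_
      rw [Commute, SemiconjBy]
      calc (w : G) * t = (t * (w : G) * t⁻¹) * t := by rw [h3]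
        _ = t * w := by group
    have hφ2 : Function.Involutive φ := by
      intro w
      apply Subtype.ext
      change t * (t * (w : G) * t⁻¹) * t⁻¹ = w
      have h3 : t⁻¹ = t := inv_eq_of_mul_eq_one_left htt
      rw [h3]
      calc t * (t * (w : G) * t) * t = (t * t) * w * (t * t) := by group
        _ = w := by rw [htt, one_mul, mul_one]
    have h3 := congrFun (hφ.coe_eq_inv_of_involutive hφ2) ⟨y, hy⟩
    exact congrArg Subtype.val h3
  -- `D = C(R)`
  set D : Subgroup G := centralizer (R : Set G) with hD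
  have hDN : D ≤ N := by
    intro d hd
    rw [hN, Subgroup.mem_normalizer_iff]
    intro y
    constructor
    · intro hy
      have h3 := Subgroup.mem_centralizer_iff.1 hd y hy
      rw [← h3, mul_inv_cancel_right]
      exact hy
    · intro hy
      have h3 := Subgroup.mem_centralizer_iff.1 hd _ hy
      have h4 : d * y * d⁻¹ = y := by
        have h5 : d * (d * y * d⁻¹) = d * (y * d * d⁻¹) := by
          rw [← h3]
          group
        have h6 := mul_left_cancel h5
        rw [h6, mul_inv_cancel_right]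
      rwa [h4] at hy
  have hDnorm : ∀ n ∈ N, ∀ d ∈ D, n * d * n⁻¹ ∈ D := by
    intro n hn d hd
    rw [hD, Subgroup.mem_centralizer_iff]
    intro y hy
    have h3 : n⁻¹ * y * n ∈ R := by
      have h4 := (Subgroup.mem_normalizer_iff.1 (N.inv_mem hn) y).1 hy
      rwa [inv_inv] at h4
    have h5 := Subgroup.mem_centralizer_iff.1 hd _ h3
    calc y * (n * d * n⁻¹) = n * ((n⁻¹ * y * n) * d) * n⁻¹ := by group
      _ = n * (d * (n⁻¹ * y * n)) * n⁻¹ := by rw [h5]
      _ = n * d * n⁻¹ * y := by group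
  -- prime divisors of `|D|` are in `A`
  have hDA : ∀ s : ℕ, s.Prime → s ∣ Nat.card ↥D → s ∈ A := by
    intro s hs hsD
    by_contra hsA
    have hsf := Fact.mk hs
    obtain ⟨d, hd⟩ := exists_prime_orderOf_dvd_card' (G := ↥D) s hsD
    have hd' : orderOf (d : G) = s := by rw [Subgroup.orderOf_coe, hd]
    have h3 := hfix s hs hsA (d : G) hd' y₀ hy₀R (Subgroup.mem_centralizer_iff.1 d.2 y₀ hy₀R)
    rw [h3, orderOf_one] at hy₀
    exact hr.one_lt.ne hy₀
  have hDodd : Odd (Nat.card ↥D) := by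
    rw [← Nat.not_even_iff_odd]
    intro he
    exact h2 (hDA 2 Nat.prime_two he.two_dvd)
  have hDsol : Group.IsSolvable ↥D := Cfsg.Agent.S0205.result hDodd
  -- `D ≤ K`
  have hDK : D ≤ K := by
    have hn : (D.map (QuotientGroup.mk' K)).Normal := by
      constructor
      rintro _ ⟨d, hd, rfl⟩ y
      obtain ⟨g, rfl⟩ := QuotientGroup.mk'_surjective K y
      obtain ⟨n, hn, h4⟩ := hproj g
      rw [← h4, ← map_mul, ← map_inv, ← map_mul]
      exact ⟨_, hDnorm n hn d hd, rfl⟩
    have hs' : Group.IsSolvable ↥(D.map (QuotientGroup.mk' K)) :=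
      Group.isSolvable_of_surjective (f := (QuotientGroup.mk' K).subgroupMap D)
        ((QuotientGroup.mk' K).subgroupMap_surjective D)
    have h3 := hsol _ hn hs'
    intro d hd
    have h4 : (QuotientGroup.mk' K) d ∈ D.map (QuotientGroup.mk' K) := ⟨d, hd, rfl⟩
    rw [h3, Subgroup.mem_bot] at h4
    exact (QuotientGroup.eq_one_iff d).1 h4
  -- `N = C_N(z) D`
  have hzz : z * z = 1 := by
    have h3 := pow_orderOf_eq_one z
    rwa [hz, pow_two] at h3
  have hzi : z⁻¹ = z := inv_eq_of_mul_eq_one_left hzz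
  set C : Subgroup G := N ⊓ centralizer {z} with hC
  have hcov : ∀ n ∈ N, ∃ c ∈ C, ∃ d ∈ D, n = c * d := by
    intro n hn
    set z' : G := n⁻¹ * z * n with hz'
    have hz'N : z' ∈ N := N.mul_mem (N.mul_mem (N.inv_mem hn) hzN) hn
    have hz'o : orderOf z' = 2 := by
      have h3 : orderOf (MulAut.conj n⁻¹ z) = orderOf z := MulEquiv.orderOf_eq _ _
      rw [MulAut.conj_apply, inv_inv] at h3
      rw [hz', h3, hz]
    have hz'z' : z' * z' = 1 := by
      have h3 := pow_orderOf_eq_one z'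
      rwa [hz'o, pow_two] at h3
    have hz'i : z'⁻¹ = z' := inv_eq_of_mul_eq_one_left hz'z'
    have hd : z * z' ∈ D := by
      rw [hD, Subgroup.mem_centralizer_iff]
      intro y hy
      have h3 := hinv z' hz'N hz'o y hy
      have h4 := hinv z hzN hz y⁻¹ (R.inv_mem hy)
      have h5 : z * z' * y * (z * z')⁻¹ = y := by
        calc z * z' * y * (z * z')⁻¹ = z * (z' * y * z'⁻¹) * z⁻¹ := by group
          _ = z * y⁻¹ * z⁻¹ := by rw [h3]
          _ = y := by rw [h4, inv_inv]
      calc y * (z * z') = (z * z' * y * (z * z')⁻¹) * (z * z') := by rw [h5]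
        _ = z * z' * y := by group
    -- a square root of `z z'`
    obtain ⟨m, hm⟩ := hDodd
    set e : G := (z * z') ^ (m + 1) with he
    have heD : e ∈ D := D.pow_mem hd _
    have hee : e * e = z * z' := by
      have h3 : (z * z') ^ Nat.card ↥D = 1 := by
        have h4 := pow_card_eq_one' (x := (⟨z * z', hd⟩ : ↥D))
        exact congrArg Subtype.val h4
      rw [he, ← pow_add, show m + 1 + (m + 1) = (2 * m + 1) + 1 by ring, pow_succ, ← hm, h3, one_mul]
    have hze : z * e * z⁻¹ = e⁻¹ := by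
      have h3 : z * (z * z') * z⁻¹ = (z * z')⁻¹ := by
        rw [mul_inv_rev, hz'i, hzi]
        calc z * (z * z') * z = (z * z) * z' * z := by group
          _ = z' * z := by rw [hzz, one_mul]
      have h4 : z * (z * z') ^ (m + 1) * z⁻¹ = (z * (z * z') * z⁻¹) ^ (m + 1) := (conj_pow).symm
      rw [he, h4, h3, inv_pow]
    have hconj : e⁻¹ * z * e = z' := by
      have h3 : z * e = e⁻¹ * z := by
        rw [← hze]
        group
      calc e⁻¹ * z * e = z * e * e := by rw [h3]
        _ = z * (e * e) := by rw [mul_assoc]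
        _ = z * (z * z') := by rw [hee]
        _ = z' := by rw [← mul_assoc, hzz, one_mul]
    refine ⟨n * e⁻¹, Subgroup.mem_inf.2 ⟨N.mul_mem hn (N.inv_mem (hDN heD)), ?_⟩, e, heD, by group⟩
    rw [Subgroup.mem_centralizer_iff]
    intro w hw
    rw [Set.mem_singleton_iff] at hw
    subst hw
    have h3 : e⁻¹ * w * e = n⁻¹ * w * n := hconj
    calc w * (n * e⁻¹) = n * (n⁻¹ * w * n) * e⁻¹ := by group
      _ = n * (e⁻¹ * w * e) * e⁻¹ := by rw [h3]
      _ = n * e⁻¹ * w := by group
  have hzC : z ∈ C := by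
    refine Subgroup.mem_inf.2 ⟨hzN, ?_⟩
    rw [Subgroup.mem_centralizer_iff]
    intro w hw
    rw [Set.mem_singleton_iff] at hw
    rw [hw]
  -- prime orders of elements of `C` are not in `A`
  have hCA : ∀ s : ℕ, s.Prime → ∀ x ∈ C, orderOf x = s → s ∉ A := by
    intro s hs x hx hxs hsA
    have hs2 : s ≠ 2 := by
      rintro rfl
      exact h2 hsA
    have hc : Commute x z := (Subgroup.mem_centralizer_iff.1 hx.2 z rfl).symm
    exact hA s hsA 2 h2 hs Nat.prime_two (exists_order_of_commute hc hs Nat.prime_two hs2 hxs hz)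
  -- the Frobenius group `R C`
  have hCR : ∀ x ∈ C, x ≠ 1 → ∀ y ∈ R, Commute y x → y = 1 := by
    intro x hx hx1 y hy hc
    have ho : orderOf x ≠ 1 := fun h => hx1 (orderOf_eq_one_iff.1 h)
    obtain ⟨s, hs, hsx⟩ := Nat.exists_prime_and_dvd ho
    have h3 : orderOf (x ^ (orderOf x / s)) = s := orderOf_pow_orderOf_div (orderOf_pos x).ne' hsx
    exact hfix s hs (hCA s hs _ (C.pow_mem hx _) h3) _ h3 y hy (hc.pow_right _)
  set F : Subgroup G := R ⊔ C with hF
  have hRF : R ≤ F := le_sup_left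
  have hCF : C ≤ F := le_sup_right
  have hFN : F ≤ N := sup_le le_normalizer inf_le_left
  have hRn : (R.subgroupOf F).Normal := by
    constructor
    rintro ⟨y, hyF⟩ hy ⟨g, hg⟩
    rw [Subgroup.mem_subgroupOf] at hy ⊢
    exact (Subgroup.mem_normalizer_iff.1 (hFN hg) y).1 hy
  have hdisj : Disjoint (R.subgroupOf F) (C.subgroupOf F) := by
    rw [disjoint_iff_inf_le]
    rintro ⟨y, hyF⟩ ⟨hy1, hy2⟩
    change y ∈ R at hy1
    change y ∈ C at hy2
    rw [Subgroup.mem_bot]
    apply Subtype.ext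
    by_contra hne
    exact hne (hCR y hy2 hne y hy1 (Commute.refl y))
  have hsup : R.subgroupOf F ⊔ C.subgroupOf F = ⊤ := by
    rw [← Subgroup.subgroupOf_sup hRF hCF, Subgroup.subgroupOf_self]
  have hcomp : Subgroup.IsComplement' (R.subgroupOf F) (C.subgroupOf F) := by
    apply Subgroup.isComplement'_of_disjoint_and_mul_eq_univ hdisj
    rw [← Subgroup.normal_mul, hsup, Subgroup.coe_top]
  have hR1 : R.subgroupOf F ≠ ⊥ := by
    intro h
    have h3 : (⟨y₀, hRF hy₀R⟩ : ↥F) ∈ R.subgroupOf F := hy₀R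
    rw [h, Subgroup.mem_bot] at h3
    have h4 : y₀ = 1 := congrArg Subtype.val h3
    rw [h4, orderOf_one] at hy₀
    exact hr.one_lt.ne hy₀
  have hC1 : C.subgroupOf F ≠ ⊥ := by
    intro h
    have h3 : (⟨z, hCF hzC⟩ : ↥F) ∈ C.subgroupOf F := hzC
    rw [h, Subgroup.mem_bot] at h3
    have h4 : z = 1 := congrArg Subtype.val h3
    rw [h4, orderOf_one] at hz
    norm_num at hz
  have hFC : Cfsg.IsFrobeniusComplement (C.subgroupOf F) := by
    rw [Cfsg.Agent.S0039.result (R.subgroupOf F) (C.subgroupOf F) hcomp hR1 hC1]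
    rintro ⟨x, hxF⟩ hx hx1
    rw [eq_bot_iff]
    rintro ⟨y, hyF⟩ ⟨hy1, hy2⟩
    rw [Subgroup.mem_bot]
    apply Subtype.ext
    have h3 := Subgroup.mem_centralizer_iff.1 hy2 ⟨x, hxF⟩ rfl
    refine hCR x hx (fun h => hx1 (Subtype.ext h)) y hy1 ?_
    exact (congrArg Subtype.val h3).symm
  -- the map to `G / K`
  refine card_dvd_of_complement hFC
    (((QuotientGroup.mk' K).comp F.subtype).comp (C.subgroupOf F).subtype) ?_ S hs hna
  intro y
  obtain ⟨g, rfl⟩ := QuotientGroup.mk'_surjective K y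
  obtain ⟨n, hn, h4⟩ := hproj g
  obtain ⟨c, hc, d, hd, rfl⟩ := hcov n hn
  refine ⟨⟨⟨c, hCF hc⟩, hc⟩, ?_⟩
  rw [← h4]
  have hd1 : (QuotientGroup.mk' K) d = 1 := (QuotientGroup.eq_one_iff d).2 (hDK hd)
  rw [map_mul, hd1, mul_one]
  rfl

end Cfsg.Agent.H510.RadIso
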