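import Cfsg.Agent.H510.UData
import Cfsg.Agent.H510.U.U8_3
import Cfsg.Agent.H510.U.U8_7
import Cfsg.Agent.H510.U.U12_3
import Cfsg.Agent.H510.U.U12_5
import Cfsg.Agent.H510.U.U12_11
import Cfsg.Agent.H510.U.U14_13
import Cfsg.Agent.H510.U.U18_5
import Cfsg.Agent.H510.U.U18_17
import Cfsg.Agent.H510.U.U20_3
import Cfsg.Agent.H510.U.U20_9
import Cfsg.Agent.H510.U.U20_19
import Cfsg.Agent.H510.U.U24_3
import Cfsg.Agent.H510.U.U24_5
import Cfsg.Agent.H510.U.U24_7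
import Cfsg.Agent.H510.U.U24_11
import Cfsg.Agent.H510.U.U24_23

/-!
# Groups of Lie type and the 16 groups `PSU(n, q)`, `n` even, of S3631 (helper510)

`main` : the elimination for the statement S3631, `n ∈ {8, 12, 14, 18, 20, 24}`, `q + 1 ∣ n`; `UEven.lean` : the
statement.
-/

set_option autoImplicit false
open Cfsg

namespace Cfsg.Agent.H510.UPairs

open Cfsg.Agent.H510.UCert Cfsg.Agent.H510.UData Cfsg.Agent.H510.U

theorem prime_eq {p a s t : ℕ} (hp : p.Prime) (hs : s.Prime) (h : t = p ^ a) (hd : s ∣ t) : s = p := by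
  rw [h] at hd
  exact (Nat.prime_dvd_prime_iff_eq hs hp).1 (hs.dvd_of_dvd_pow hd)

/-- the list of the pairs `(n, q)` -/
def pairs : List (ℕ × ℕ) := [(8, 3), (8, 7), (12, 3), (12, 5), (12, 11), (14, 13), (18, 5), (18, 17), (20, 3), (20, 9),
  (20, 19), (24, 3), (24, 5), (24, 7), (24, 11), (24, 23)]

theorem list_of {n q : ℕ} (hn : n ∈ ({8, 12, 14, 18, 20, 24} : Finset ℕ)) (ho : Odd q) (hd : q + 1 ∣ n)
    (h1 : q ≠ 1) : (n, q) ∈ pairs := by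
  have h2 : ∀ n ∈ ({8, 12, 14, 18, 20, 24} : Finset ℕ), ∀ q ∈ Finset.range 24,
      (q % 2 = 1 ∧ n % (q + 1) = 0 ∧ q ≠ 1) → (n, q) ∈ pairs := by decide
  have hle : q + 1 ≤ n := by
    have hn0 : 0 < n := by
      rcases Nat.eq_zero_or_pos n with h | h
      · subst h
        exact absurd hn (by decide)
      · exact h
    exact Nat.le_of_dvd hn0 hd
  have hn24 : n ≤ 24 := by
    have : ∀ n ∈ ({8, 12, 14, 18, 20, 24} : Finset ℕ), n ≤ 24 := by decide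
    exact this n hn
  exact h2 n hn q (Finset.mem_range.2 (by omega)) ⟨Nat.odd_iff.1 ho, Nat.mod_eq_zero_of_dvd hd, h1⟩

/-- **The elimination for `n` even.** -/
theorem main {F : Type*} [Field F] [Fintype F] (p a q n : ℕ) (hp : p.Prime) (ha : 1 ≤ a) (hq : q = p ^ a)
    (hodd : Odd q) (hF : Fintype.card F = q ^ 2)
    (hn : n ∈ ({8, 12, 14, 18, 20, 24} : Finset ℕ)) (hdiv : q + 1 ∣ n)
    {X : Type*} [Group X] [Finite X]
    (h1 : ∀ t : ℕ, t.Prime → t ∣ Nat.card X → t ∣ Nat.card (Cfsg.PSU n F q))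
    (h2 : ∀ ρ : Finset ℕ, ((∀ r ∈ ρ, r.Prime ∧ r ∣ Nat.card (Cfsg.PSU n F q)) ∧
      ∀ r ∈ ρ, ∀ s ∈ ρ, r ≠ s → ¬ ∃ x : Cfsg.PSU n F q, orderOf x = r * s) → 3 ≤ ρ.card →
      ∀ r ∈ ρ, ∀ s ∈ ρ, r ≠ s → r ∣ Nat.card X ∨ s ∣ Nat.card X)
    (r : ℕ) (hr : r.Prime) (hrp : r ≠ p) : ¬ Cfsg.IsLieTypeChar r X := by
  intro hlie
  have hq1 : q ≠ 1 := by
    intro h3
    have h4 := Nat.one_lt_pow (by omega : a ≠ 0) hp.one_lt
    omega
  have hlist := list_of hn hodd hdiv hq1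
  have key : ∀ D : UD, ldU D = true → D.n = n → D.q = q → False := by
    intro D hD hDn hDq
    subst hDn
    subst hDq
    have hg := good_of_ldU hD
    have hpp : D.p = p := by
      refine prime_eq hp hg.p hq ?_
      rw [← hg.q]
      exact dvd_pow_self _ hg.a.ne'
    exact UData.main hD hF h1 h2 r hr (by rw [hpp]; exact hrp) hlie
  unfold pairs at hlist
  simp only [List.mem_cons, List.not_mem_nil, or_false, Prod.mk.injEq] at hlist
  rcases hlist with ⟨hn', hq'⟩ | ⟨hn', hq'⟩ | ⟨hn', hq'⟩ | ⟨hn', hq'⟩ | ⟨hn', hq'⟩ | ⟨hn', hq'⟩ | ⟨hn', hq'⟩ | ⟨hn', hq'⟩ | ⟨hn', hq'⟩ | ⟨hn', hq'⟩ | ⟨hn', hq'⟩ | ⟨hn', hq'⟩ | ⟨hn', hq'⟩ | ⟨hn', hq'⟩ | ⟨hn', hq'⟩ | ⟨hn', hq'⟩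
  · exact key U8_3 U8_3_ok hn'.symm hq'.symm
  · exact key U8_7 U8_7_ok hn'.symm hq'.symm
  · exact key U12_3 U12_3_ok hn'.symm hq'.symm
  · exact key U12_5 U12_5_ok hn'.symm hq'.symm
  · exact key U12_11 U12_11_ok hn'.symm hq'.symm
  · exact key U14_13 U14_13_ok hn'.symm hq'.symm
  · exact key U18_5 U18_5_ok hn'.symm hq'.symm
  · exact key U18_17 U18_17_ok hn'.symm hq'.symm
  · exact key U20_3 U20_3_ok hn'.symm hq'.symm
  · exact key U20_9 U20_9_ok hn'.symm hq'.symm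
  · exact key U20_19 U20_19_ok hn'.symm hq'.symm
  · exact key U24_3 U24_3_ok hn'.symm hq'.symm
  · exact key U24_5 U24_5_ok hn'.symm hq'.symm
  · exact key U24_7 U24_7_ok hn'.symm hq'.symm
  · exact key U24_11 U24_11_ok hn'.symm hq'.symm
  · exact key U24_23 U24_23_ok hn'.symm hq'.symm

end Cfsg.Agent.H510.UPairs
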